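import Cfsg.Agent.Lib.Helper15.RelGl2
import Cfsg.Agent.Lib.Helper1.Tools

/-!
# Tools for Dade's theorem on `p`-elementary detection of extendibility (Isaacs 8.24)
-/

set_option autoImplicit false

namespace Cfsg.Agent.Lib.Helper81

open Cfsg Cfsg.Agent.Lib Cfsg.Agent.Lib.Helper15
open scoped ComplexConjugate

section inv

variable {Γ : Type*} [Group Γ] [Fintype Γ] (Q : Subgroup Γ) [hQ : Q.Normal] [Fintype Q]

attribute [local instance] irrActN

/-- if `Γ / Q` is a `p`-group, `α`, `γ` are invariant characters of `Q` and `p ∤ [γ, α]`, then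
`α` has an invariant irreducible constituent of multiplicity prime to `p` -/
theorem exists_inv_constituent (p : ℕ) [Fact p.Prime] (hidx : ∃ k : ℕ, Q.index = p ^ k)
    {α γ : Q → ℂ} (hα : IsCharacter Q α) (hγ : IsCharacter Q γ) (hαinv : ∀ g : Γ, cj Q g α = α)
    (hγinv : ∀ g : Γ, cj Q g γ = γ) (m : ℕ) (hm : classInner γ α = m) (hpm : ¬ p ∣ m) :
    ∃ φ : IrrCharacter Q, (∀ g : Γ, cj Q g (φ : Q → ℂ) = φ) ∧
      ∃ b : ℕ, ¬ p ∣ b ∧ classInner α (φ : Q → ℂ) = b := by
  classical
  have := Fintype.ofFinite (IrrCharacter Q)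
  choose b hb using fun φ : IrrCharacter Q => inner_nat hα (irr_char φ.2)
  choose c hc using fun φ : IrrCharacter Q => inner_nat hγ (irr_char φ.2)
  have hsum : m = ∑ φ : IrrCharacter Q, b φ * c φ := by
    have h1 : classInner γ α = ∑ φ : IrrCharacter Q, ((b φ * c φ : ℕ) : ℂ) := by
      conv_lhs => rw [cf_expansion (char_cf hα)]
      rw [classInner_sum_right]
      apply Finset.sum_congr rfl
      intro φ _
      rw [classInner_smul_right, hb, hc, Complex.conj_natCast]
      push_cast
      ring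
    rw [hm] at h1
    exact_mod_cast h1
  let S : Sylow p Γ := default
  let P : Subgroup Γ := (S : Subgroup Γ)
  have hP : IsPGroup p P := S.2
  have hA : ∀ a : ZMod p, p • a = 0 := by
    intro a
    rw [nsmul_eq_mul, ZMod.natCast_self, zero_mul]
  have hbinv : ∀ (x : P) (φ : IrrCharacter Q), b (x • φ) = b φ := by
    intro x φ
    have : (b (x • φ) : ℂ) = b φ := by
      rw [← hb, ← hb, irrActN_sub_coe, ← classInner_cj_left, hαinv]
    exact_mod_cast this
  have hcinv : ∀ (x : P) (φ : IrrCharacter Q), c (x • φ) = c φ := by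
    intro x φ
    have : (c (x • φ) : ℂ) = c φ := by
      rw [← hc, ← hc, irrActN_sub_coe, ← classInner_cj_left, hγinv]
    exact_mod_cast this
  have e1 := Helper16.sum_eq_sum_fixedPoints (Γ := P) (X := IrrCharacter Q) p hP hA
    (fun φ => ((b φ * c φ : ℕ) : ZMod p)) (by
      intro x φ
      simp only [hbinv, hcinv])
  have e2 : ∑ φ : IrrCharacter Q, ((b φ * c φ : ℕ) : ZMod p) = (m : ZMod p) := by
    rw [hsum, Nat.cast_sum]
  have e3 : (m : ZMod p) ≠ 0 := by
    rwa [Ne, ZMod.natCast_eq_zero_iff]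
  rw [← e2, e1] at e3
  obtain ⟨φ, hφ, hφ'⟩ := Finset.exists_ne_zero_of_sum_ne_zero e3
  rw [Finset.mem_filter] at hφ
  have hfix : ∀ x : P, x • φ = φ := hφ.2
  have hPle : P ≤ inertia Q (φ : Q → ℂ) := by
    intro x hx
    exact (smul_eq_iff_mem_inertia Q x φ).1 (hfix ⟨x, hx⟩)
  have hQle : Q ≤ inertia Q (φ : Q → ℂ) := le_inertia Q (irr_cf φ.2)
  have htop : inertia Q (φ : Q → ℂ) = ⊤ := by
    rw [← Subgroup.index_eq_one]
    obtain ⟨k, hk⟩ := hidx
    have h1 : (inertia Q (φ : Q → ℂ)).index ∣ p ^ k := hk ▸ Subgroup.index_dvd_of_le hQle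
    have h2 : (inertia Q (φ : Q → ℂ)).index ∣ P.index := Subgroup.index_dvd_of_le hPle
    have h3 : Nat.Coprime (p ^ k) P.index := by
      apply Nat.Coprime.pow_left
      exact (Nat.Prime.coprime_iff_not_dvd Fact.out).2 S.not_dvd_index
    exact Nat.eq_one_of_dvd_coprimes h3 h1 h2
  refine ⟨φ, fun g => ?_, b φ, ?_, hb φ⟩
  · rw [← mem_inertia, htop]
    exact Subgroup.mem_top g
  · intro hdvd
    apply hφ'
    rw [ZMod.natCast_eq_zero_iff]
    exact Dvd.dvd.mul_right hdvd _

end inv

section functional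

variable {G : Type*} [Group G] [Fintype G] (N : Subgroup G) [hN : N.Normal] [Fintype N]

omit [Fintype G] hN [Fintype N] in
theorem extendByZero_mul_extendByZero (E : Subgroup G) (ψ : E → ℂ) (w : N → ℂ) (g : G) :
    extendByZero E ψ g * extendByZero N w g
      = extendByZero (E ⊓ N) (resFun inf_le_left ψ * resFun inf_le_right w) g := by
  by_cases hE : g ∈ E
  · by_cases hNg : g ∈ N
    · rw [extendByZero_mem E _ hE, extendByZero_mem N _ hNg,
        extendByZero_mem (E ⊓ N) _ (Subgroup.mem_inf.2 ⟨hE, hNg⟩)]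
      rfl
    · rw [extendByZero_not_mem N _ hNg, extendByZero_not_mem (E ⊓ N) _ (fun h => hNg h.2),
        mul_zero]
  · rw [extendByZero_not_mem E _ hE, extendByZero_not_mem (E ⊓ N) _ (fun h => hE h.1), zero_mul]

/-- the key computation in Dade's theorem -/
theorem dade_functional (ϑ : N → ℂ) (hinv : ∀ g : G, cj N g ϑ = ϑ) (E : Subgroup G) [Fintype E]
    [Fintype (E ⊓ N : Subgroup G)] (ψ : E → ℂ) :
    classInner (fun n : N => indFun E ψ n * ϑ n) ϑ
      = ((E ⊔ N).index : ℂ) * classInner (resFun inf_le_left ψ * resFun inf_le_right ϑ)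
          (resFun (inf_le_right : E ⊓ N ≤ N) ϑ) := by
  classical
  set w : N → ℂ := fun n => ϑ n * conj (ϑ n) with hw
  set Θ : G → ℂ := extendByZero N w with hΘ
  have hwconj : ∀ n, conj (w n) = w n := by
    intro n
    simp only [hw, map_mul, Complex.conj_conj]
    ring
  have hΘconj : ∀ g, conj (Θ g) = Θ g := by
    intro g
    by_cases hg : g ∈ N
    · rw [hΘ, extendByZero_mem N _ hg, hwconj]
    · rw [hΘ, extendByZero_not_mem N _ hg, map_zero]
  have hΘcf : IsClassFunction G Θ := by
    intro g x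
    by_cases hg : g ∈ N
    · rw [hΘ, extendByZero_mem N _ hg, extendByZero_mem N _ (hN.conj_mem g hg x)]
      have h1 := congrFun (hinv x) ⟨g, hg⟩
      rw [cj_apply] at h1
      simp only [hw]
      rw [h1]
    · have hg' : x * g * x⁻¹ ∉ N := by
        intro h
        apply hg
        have := hN.conj_mem _ h x⁻¹
        simpa [mul_assoc] using this
      rw [hΘ, extendByZero_not_mem N _ hg, extendByZero_not_mem N _ hg']
  have ha := classInner_indFun_left E ψ Θ hΘcf
  have hb : classInner (indFun E ψ) Θ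
      = (Nat.card G : ℂ)⁻¹ * ((Nat.card N : ℂ) * classInner (fun n : N => indFun E ψ n * ϑ n) ϑ) := by
    unfold classInner
    congr 1
    rw [← mul_assoc, mul_inv_cancel₀ (card_ne_zero N), one_mul]
    simp_rw [hΘconj]
    have := sum_extendByZero_mul N w (indFun E ψ)
    rw [← hΘ] at this
    calc ∑ g : G, indFun E ψ g * Θ g = ∑ g : G, Θ g * indFun E ψ g := by
          apply Finset.sum_congr rfl; intro g _; ring
      _ = ∑ n : N, w n * indFun E ψ n := this
      _ = _ := by
          apply Finset.sum_congr rfl; intro n _; simp only [hw]; ring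
  have hc : classInner ψ (fun e : E => Θ e)
      = (Nat.card E : ℂ)⁻¹ * ((Nat.card (E ⊓ N : Subgroup G) : ℂ) *
        classInner (resFun inf_le_left ψ * resFun inf_le_right ϑ)
          (resFun (inf_le_right : E ⊓ N ≤ N) ϑ)) := by
    unfold classInner
    congr 1
    rw [← mul_assoc, mul_inv_cancel₀ (card_ne_zero _), one_mul]
    simp_rw [hΘconj]
    rw [← sum_extendByZero_mul E ψ Θ]
    simp_rw [hΘ, extendByZero_mul_extendByZero]
    rw [sum_extendByZero]
    apply Finset.sum_congr rfl
    intro d _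
    simp only [Pi.mul_apply, resFun_apply, hw]
    ring
  rw [hb, hc] at ha
  have h1 := Helper1.card_sup_mul_card_inf (H := E) (K := N) (by
    rw [Subgroup.normalizer_eq_top]; exact le_top)
  have h2 := (E ⊔ N).card_mul_index
  have h1' : (Nat.card (E ⊔ N : Subgroup G) : ℂ) * (Nat.card (E ⊓ N : Subgroup G) : ℂ)
      = (Nat.card E : ℂ) * (Nat.card N : ℂ) := by exact_mod_cast h1
  have h2' : (Nat.card (E ⊔ N : Subgroup G) : ℂ) * ((E ⊔ N).index : ℂ) = (Nat.card G : ℂ) := by
    exact_mod_cast h2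
  have hG := card_ne_zero G
  have hNn := card_ne_zero N
  have hE := card_ne_zero E
  have hS := card_ne_zero (E ⊔ N : Subgroup G)
  set X := classInner (fun n : N => indFun E ψ n * ϑ n) ϑ
  set Y := classInner (resFun inf_le_left ψ * resFun inf_le_right ϑ)
          (resFun (inf_le_right : E ⊓ N ≤ N) ϑ)
  have h3 : (Nat.card E : ℂ) * (Nat.card N : ℂ) * X
      = (Nat.card G : ℂ) * (Nat.card (E ⊓ N : Subgroup G) : ℂ) * Y := by
    field_simp at ha
    linear_combination ha
  rw [← h1', ← h2'] at h3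
  have h4 : (Nat.card (E ⊔ N : Subgroup G) : ℂ) * (Nat.card (E ⊓ N : Subgroup G) : ℂ) ≠ 0 :=
    mul_ne_zero hS (card_ne_zero _)
  apply mul_left_cancel₀ h4
  linear_combination h3

end functional

end Cfsg.Agent.Lib.Helper81
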