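import Cfsg.Agent.Lib.Helper81.Dade
import Cfsg.Agent.Lib.Helper15.LinearHom
import Cfsg.Agent.Lib.Helper80.Linear
import Cfsg.Agent.S0887

/-!
# Extending characters of a normal subgroup of `p`-power index of a `p`-elementary group
-/

set_option autoImplicit false

namespace Cfsg.Agent.Lib.Helper81

open Cfsg Cfsg.Agent.Lib Cfsg.Agent.Lib.Helper15
open scoped ComplexConjugate

/-- an element of order prime to `p` lies in every normal subgroup of `p`-power index -/
theorem mem_of_coprime_order {Γ : Type*} [Group Γ] (D : Subgroup Γ) [D.Normal] (p j : ℕ)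
    (hD : D.index = p ^ j) (x : Γ) (hx : (orderOf x).Coprime p) : x ∈ D := by
  have h1 : x ^ (p ^ j) ∈ D := hD ▸ Subgroup.pow_index_mem D x
  have hc : (p ^ j).Coprime (orderOf x) := (Nat.Coprime.pow_right j hx).symm
  obtain ⟨m, hm⟩ := exists_pow_eq_self_of_coprime hc
  rw [← hm]
  exact Subgroup.pow_mem _ h1 m

/-- decomposition of a `p`-elementary group -/
theorem elementary_decomp {Γ : Type*} [Group Γ] [Finite Γ] (p : ℕ) [Fact p.Prime] (x : Γ)
    (hx : (orderOf x).Coprime p)
    (hidx : ∃ k : ℕ, (Subgroup.zpowers x).index = p ^ k) (S : Sylow p Γ) (g : Γ) :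
    ∃ s ∈ S, ∃ c ∈ Subgroup.zpowers x, g = s * c := by
  obtain ⟨k, hk⟩ := hidx
  have hcard := (Subgroup.zpowers x).card_mul_index
  rw [hk, Nat.card_zpowers] at hcard
  have hS : Nat.card S = p ^ k := by
    rw [S.card_eq_multiplicity, ← hcard, Nat.factorization_mul (orderOf_pos x).ne'
      (pow_ne_zero _ (Fact.out : p.Prime).ne_zero)]
    have h1 : (orderOf x).factorization p = 0 :=
      Nat.factorization_eq_zero_of_not_dvd
        (fun h => (Nat.Prime.coprime_iff_not_dvd Fact.out).1 hx.symm h)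
    simp [h1, (Fact.out : p.Prime).factorization_self]
  have hcompl : Subgroup.IsComplement' (S : Subgroup Γ) (Subgroup.zpowers x) := by
    apply Subgroup.isComplement'_of_coprime
    · rw [hS, Nat.card_zpowers, ← hcard, mul_comm]
    · rw [hS, Nat.card_zpowers]
      exact (Nat.Coprime.pow_right k hx).symm
  obtain ⟨sc, hsc, -⟩ := hcompl.existsUnique g
  exact ⟨sc.1, sc.1.2, sc.2, sc.2.2, hsc.symm⟩

/-- **Extension in `p`-elementary groups.** -/
theorem elementary_extend {Γ : Type*} [Group Γ] [Finite Γ] (p : ℕ) [Fact p.Prime] (x : Γ)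
    (hxc : x ∈ Subgroup.center Γ) (hx : (orderOf x).Coprime p)
    (hidx : ∃ k : ℕ, (Subgroup.zpowers x).index = p ^ k) (D : Subgroup Γ) [D.Normal]
    (hD : ∃ j : ℕ, D.index = p ^ j) (S : Sylow p Γ)
    (hcent : ∀ a ∈ (S : Subgroup Γ) ⊓ D, ∀ y ∈ S, a * y = y * a)
    (hlin : ∀ lam : ↥((S : Subgroup Γ) ⊓ D) →* ℂˣ, ∃ α : ↥(S : Subgroup Γ) →* ℂˣ,
      ∀ z : ↥((S : Subgroup Γ) ⊓ D), α ⟨z, z.2.1⟩ = lam z)
    (φ : D → ℂ) (hφ : IsIrrCharacter D φ) :
    ∃ f : Γ →* ℂˣ, ∀ d : D, φ d = (f d : ℂ) := by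
  classical
  obtain ⟨j, hj⟩ := hD
  have hxD : x ∈ D := mem_of_coprime_order D p j hj x hx
  have hCD : Subgroup.zpowers x ≤ D := Subgroup.zpowers_le.2 hxD
  have hCc : ∀ c ∈ Subgroup.zpowers x, ∀ g : Γ, c * g = g * c := by
    intro c hc g
    have : c ∈ Subgroup.center Γ := (Subgroup.zpowers_le.2 hxc) hc
    exact (Subgroup.mem_center_iff.1 this g).symm
  -- elements of `D` commute with elements of `S`
  have hDS : ∀ d ∈ D, ∀ y ∈ S, d * y = y * d := by
    intro d hd y hy
    obtain ⟨s, hs, c, hc, rfl⟩ := elementary_decomp p x hx hidx S d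
    have hsD : s ∈ D := by
      have := D.mul_mem hd (D.inv_mem (hCD hc))
      simpa using this
    have h1 := hcent s ⟨hs, hsD⟩ y hy
    rw [mul_assoc, hCc c hc y, ← mul_assoc, h1, mul_assoc]
  have hDD : ∀ d ∈ D, ∀ d' ∈ D, d * d' = d' * d := by
    intro d hd d' hd'
    obtain ⟨s, hs, c, hc, rfl⟩ := elementary_decomp p x hx hidx S d'
    rw [← mul_assoc, hDS d hd s hs, mul_assoc, ← hCc c hc d, mul_assoc]
  -- `φ` is linear
  have hφ1 : φ 1 = 1 := by
    apply (Helper80.char_one_eq_one_iff ⟨φ, hφ⟩).2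
    intro n hn
    have : commutator D = ⊥ := by
      rw [commutator_def, Subgroup.commutator_eq_bot_iff_le_centralizer]
      intro a _
      rw [Subgroup.mem_centralizer_iff]
      intro b _
      exact Subtype.ext (hDD b b.2 a a.2)
    rw [this, Subgroup.mem_bot] at hn
    rw [hn]
  obtain ⟨φ₀, rfl⟩ := exists_toFn (irr_char hφ) hφ1
  obtain ⟨α, hα⟩ := hlin (φ₀.comp (Subgroup.inclusion inf_le_right))
  -- the product map
  let F : ↥(S : Subgroup Γ) × D →* Γ :=
    MonoidHom.noncommCoprod (S : Subgroup Γ).subtype D.subtype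
      (fun s d => (hDS d d.2 s s.2).symm)
  have hF : Function.Surjective F := by
    intro g
    obtain ⟨s, hs, c, hc, rfl⟩ := elementary_decomp p x hx hidx S g
    exact ⟨(⟨s, hs⟩, ⟨c, hCD hc⟩), rfl⟩
  let K : ↥(S : Subgroup Γ) × D →* ℂˣ := MonoidHom.coprod α φ₀
  have hker : F.ker ≤ K.ker := by
    rintro ⟨s, d⟩ hsd
    rw [MonoidHom.mem_ker] at hsd ⊢
    have h1 : (s : Γ) * d = 1 := hsd
    have h2 : (s : Γ) = (d : Γ)⁻¹ := eq_inv_of_mul_eq_one_left h1
    have hsD : (s : Γ) ∈ D := by rw [h2]; exact D.inv_mem d.2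
    have h3 := hα ⟨s, ⟨s.2, hsD⟩⟩
    have h4 : α s = φ₀ ⟨s, hsD⟩ := h3
    change α s * φ₀ d = 1
    rw [h4, ← map_mul]
    have : (⟨s, hsD⟩ : D) * d = 1 := Subtype.ext h1
    rw [this, map_one]
  refine ⟨F.liftOfSurjective hF ⟨K, hker⟩, fun d => ?_⟩
  have h5 : F (1, d) = d := by
    change ((1 : ↥(S : Subgroup Γ)) : Γ) * d = d
    simp
  rw [← h5, MonoidHom.liftOfRightInverse_comp_apply]
  change toFn φ₀ d = ((α 1 * φ₀ d : ℂˣ) : ℂ)
  rw [map_one, one_mul, toFn_apply]

/-- restriction to a normal subgroup of an induced function, paired with an invariant function -/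
theorem inner_ind_restrict {G : Type*} [Group G] [Fintype G] (N : Subgroup G) [hN : N.Normal]
    [Fintype N] (w : N → ℂ) (hinv : ∀ g : G, cj N g w = w) (E : Subgroup G) [Fintype E]
    [Fintype (E ⊓ N : Subgroup G)] (ψ : E → ℂ) :
    classInner (fun n : N => indFun E ψ n) w
      = ((E ⊔ N).index : ℂ) * classInner (resFun inf_le_left ψ)
          (resFun (inf_le_right : E ⊓ N ≤ N) w) := by
  classical
  set Θ : G → ℂ := extendByZero N w with hΘ
  set w' : N → ℂ := fun n => conj (w n) with hw'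
  have hΘconj : ∀ g, conj (Θ g) = extendByZero N w' g := by
    intro g
    by_cases hg : g ∈ N
    · rw [hΘ, extendByZero_mem N _ hg, extendByZero_mem N _ hg]
    · rw [hΘ, extendByZero_not_mem N _ hg, extendByZero_not_mem N _ hg, map_zero]
  have hΘcf : IsClassFunction G Θ := by
    intro g x
    by_cases hg : g ∈ N
    · rw [hΘ, extendByZero_mem N _ hg, extendByZero_mem N _ (hN.conj_mem g hg x)]
      have h1 := congrFun (hinv x) ⟨g, hg⟩
      rw [cj_apply] at h1
      exact h1
    · have hg' : x * g * x⁻¹ ∉ N := by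
        intro h
        apply hg
        have := hN.conj_mem _ h x⁻¹
        simpa [mul_assoc] using this
      rw [hΘ, extendByZero_not_mem N _ hg, extendByZero_not_mem N _ hg']
  have ha := classInner_indFun_left E ψ Θ hΘcf
  have hb : classInner (indFun E ψ) Θ
      = (Nat.card G : ℂ)⁻¹ * ((Nat.card N : ℂ) * classInner (fun n : N => indFun E ψ n) w) := by
    unfold classInner
    congr 1
    rw [← mul_assoc, mul_inv_cancel₀ (card_ne_zero N), one_mul]
    simp_rw [hΘconj]
    have := sum_extendByZero_mul N w' (indFun E ψ)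
    calc ∑ g : G, indFun E ψ g * extendByZero N w' g
        = ∑ g : G, extendByZero N w' g * indFun E ψ g := by
          apply Finset.sum_congr rfl; intro g _; ring
      _ = ∑ n : N, w' n * indFun E ψ n := this
      _ = _ := by
          apply Finset.sum_congr rfl; intro n _; simp only [hw']; ring
  have hc : classInner ψ (fun e : E => Θ e)
      = (Nat.card E : ℂ)⁻¹ * ((Nat.card (E ⊓ N : Subgroup G) : ℂ) *
        classInner (resFun inf_le_left ψ) (resFun (inf_le_right : E ⊓ N ≤ N) w)) := by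
    unfold classInner
    congr 1
    rw [← mul_assoc, mul_inv_cancel₀ (card_ne_zero _), one_mul]
    simp_rw [hΘconj]
    rw [← sum_extendByZero_mul E ψ (extendByZero N w')]
    simp_rw [extendByZero_mul_extendByZero]
    rw [sum_extendByZero]
    rfl
  rw [hb, hc] at ha
  have h1 := Helper1.card_sup_mul_card_inf (H := E) (K := N) (by
    rw [Subgroup.normalizer_eq_top]; exact le_top)
  have h2 := (E ⊔ N).card_mul_index
  have h1' : (Nat.card (E ⊔ N : Subgroup G) : ℂ) * (Nat.card (E ⊓ N : Subgroup G) : ℂ)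
      = (Nat.card E : ℂ) * (Nat.card N : ℂ) := by exact_mod_cast h1
  have h2' : (Nat.card (E ⊔ N : Subgroup G) : ℂ) * ((E ⊔ N).index : ℂ) = (Nat.card G : ℂ) := by
    exact_mod_cast h2
  have hG := card_ne_zero G
  have hNn := card_ne_zero N
  have hE := card_ne_zero E
  have hS := card_ne_zero (E ⊔ N : Subgroup G)
  set X := classInner (fun n : N => indFun E ψ n) w
  set Y := classInner (resFun inf_le_left ψ) (resFun (inf_le_right : E ⊓ N ≤ N) w)
  have h3 : (Nat.card E : ℂ) * (Nat.card N : ℂ) * X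
      = (Nat.card G : ℂ) * (Nat.card (E ⊓ N : Subgroup G) : ℂ) * Y := by
    field_simp at ha
    linear_combination ha
  rw [← h1', ← h2'] at h3
  have h4 : (Nat.card (E ⊔ N : Subgroup G) : ℂ) * (Nat.card (E ⊓ N : Subgroup G) : ℂ) ≠ 0 :=
    mul_ne_zero hS (card_ne_zero _)
  apply mul_left_cancel₀ h4
  linear_combination h3

/-- extension criterion: if `E N = G`, `G / N` is a `p`-group, `μ` is a character of `E` and
`p ∤ [μ, ϑ]` on `E ∩ N`, then the invariant character `ϑ` extends to `G` -/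
theorem extends_of_inner_coprime {G : Type*} [Group G] [Fintype G] (N : Subgroup G)
    [hN : N.Normal] [Fintype N] (p : ℕ) (hp : p.Prime) (hind : ∃ k : ℕ, N.index = p ^ k)
    {ϑ : N → ℂ} (hϑ : IsIrrCharacter N ϑ) (hinv : ∀ g : G, cj N g ϑ = ϑ) (E : Subgroup G)
    [Fintype E] [Fintype (E ⊓ N : Subgroup G)] (htop : E ⊔ N = ⊤) {μ : E → ℂ}
    (hμ : IsCharacter E μ) (b : ℕ) (hb : ¬ p ∣ b)
    (hinner : classInner (resFun inf_le_left μ) (resFun (inf_le_right : E ⊓ N ≤ N) ϑ) = b) :
    ∃ χ : G → ℂ, IsIrrCharacter G χ ∧ ∀ n : N, χ n = ϑ n := by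
  classical
  have := Fintype.ofFinite (IrrCharacter G)
  have hΨ : IsCharacter G (indFun E μ) := char_indFun E hμ
  have h1 := inner_ind_restrict N ϑ hinv E μ
  rw [htop, Subgroup.index_top, Nat.cast_one, one_mul, hinner] at h1
  choose c hc using fun χ : IrrCharacter G => inner_nat hΨ (irr_char χ.2)
  choose e he using fun χ : IrrCharacter G =>
    inner_nat (char_restrict (irr_char χ.2) N) (irr_char hϑ)
  have hsum : b = ∑ χ : IrrCharacter G, c χ * e χ := by
    have h2 : classInner (fun n : N => indFun E μ n) ϑ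
        = ∑ χ : IrrCharacter G, ((c χ * e χ : ℕ) : ℂ) := by
      have h3 : (fun n : N => indFun E μ n)
          = ∑ χ : IrrCharacter G, (c χ : ℂ) • (fun n : N => (χ : G → ℂ) n) := by
        rw [← resLin_apply, cf_expansion (char_cf hΨ), map_sum]
        apply Finset.sum_congr rfl
        intro χ _
        rw [map_smul, resLin_apply, hc]
      rw [h3, classInner_sum_left]
      apply Finset.sum_congr rfl
      intro χ _
      rw [classInner_smul_left, he]
      push_cast
      ring
    rw [h1] at h2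
    exact_mod_cast h2
  have hex : ∃ χ : IrrCharacter G, ¬ p ∣ c χ * e χ := by
    by_contra hcon
    push Not at hcon
    exact hb (hsum ▸ Finset.dvd_sum (fun χ _ => hcon χ))
  obtain ⟨χ, hχ⟩ := hex
  have hpe : ¬ p ∣ e χ := fun h => hχ (Dvd.dvd.mul_left h _)
  have he0 : e χ ≠ 0 := by
    intro h
    exact hpe (h ▸ dvd_zero p)
  have hne : classInner (fun n : N => (χ : G → ℂ) n) ϑ ≠ 0 := by
    rw [he]
    exact_mod_cast he0
  have hres := restrict_eq_smul_of_invariant N χ.2 hϑ hne hinv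
  rw [he] at hres
  obtain ⟨d, hd⟩ := char_one_nat (irr_char hϑ)
  have hd0 : d ≠ 0 := by
    rintro rfl
    exact irr_one_ne_zero hϑ (by rw [hd]; simp)
  have hχ1 : (χ : G → ℂ) 1 = ((e χ * d : ℕ) : ℂ) := by
    have := congrFun hres 1
    simp only [Pi.smul_apply, smul_eq_mul] at this
    rw [hd] at this
    push_cast
    exact this
  obtain ⟨-, h5⟩ := S0887.result N χ χ.2 ϑ hϑ hne (e χ * d) d hχ1 hd
  rw [Nat.mul_div_cancel _ (Nat.pos_of_ne_zero hd0)] at h5
  obtain ⟨k, hk⟩ := hind
  rw [hk] at h5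
  obtain ⟨i, -, hi⟩ := (Nat.dvd_prime_pow hp).1 h5
  have hi0 : i = 0 := by
    by_contra h
    exact hpe (hi ▸ dvd_pow_self p h)
  rw [hi0, pow_zero] at hi
  refine ⟨χ, χ.2, fun n => ?_⟩
  have := congrFun hres n
  rw [hi] at this
  simpa using this

end Cfsg.Agent.Lib.Helper81
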