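import Mathlib
import Cfsg.Agent.Lib.Helper76.FS.Defs
import Cfsg.Agent.Lib.Helper1.Cores

set_option autoImplicit false

universe u

namespace Cfsg.Agent.Lib.Helper81.FS

open Cfsg Cfsg.Agent.Lib.Helper76.FS Cfsg.Agent.Lib.Helper1

theorem conj_pow_aux {X : Type*} [Group X] (k r c : X) (hcdef : k * r * k⁻¹ = c * r)
    (hc : k * c = c * k) (n : ℕ) : k ^ n * r * (k ^ n)⁻¹ = c ^ n * r := by
  induction n with
  | zero => simp
  | succ n ih =>
    have hc' : Commute k (c ^ n) := (show Commute k c from hc).pow_right n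
    calc k ^ (n + 1) * r * (k ^ (n + 1))⁻¹ = k * (k ^ n * r * (k ^ n)⁻¹) * k⁻¹ := by
          rw [pow_succ']; simp only [mul_assoc, mul_inv_rev]
      _ = k * (c ^ n * r) * k⁻¹ := by rw [ih]
      _ = (k * c ^ n) * r * k⁻¹ := by simp only [mul_assoc]
      _ = (c ^ n * k) * r * k⁻¹ := by rw [hc'.eq]
      _ = c ^ n * (k * r * k⁻¹) := by simp only [mul_assoc]
      _ = c ^ n * (c * r) := by rw [hcdef]
      _ = c ^ (n + 1) * r := by rw [pow_succ, mul_assoc]

theorem comm_eq_one_aux {X : Type*} [Group X] {p : ℕ} [hp : Fact p.Prime] (k r : X)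
    (hk : ¬ p ∣ orderOf k)
    (hc : k * (k * r * k⁻¹ * r⁻¹) = (k * r * k⁻¹ * r⁻¹) * k)
    (hcp : ∃ a : ℕ, (k * r * k⁻¹ * r⁻¹) ^ p ^ a = 1) : k * r = r * k := by
  obtain ⟨a, ha⟩ := hcp
  have h1 := conj_pow_aux k r (k * r * k⁻¹ * r⁻¹) (by group) hc (orderOf k)
  rw [pow_orderOf_eq_one, one_mul, inv_one, mul_one] at h1
  have h2 : (k * r * k⁻¹ * r⁻¹) ^ orderOf k = 1 := by
    have := h1.symm
    rwa [mul_eq_right] at this
  have hcop : Nat.Coprime (orderOf k) (p ^ a) :=
    Nat.Coprime.pow_right a ((Nat.Prime.coprime_iff_not_dvd hp.out).mpr hk).symm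
  have h3 : orderOf (k * r * k⁻¹ * r⁻¹) ∣ Nat.gcd (orderOf k) (p ^ a) :=
    Nat.dvd_gcd (orderOf_dvd_of_pow_eq_one h2) (orderOf_dvd_of_pow_eq_one ha)
  rw [hcop.gcd_eq_one, Nat.dvd_one, orderOf_eq_one_iff] at h3
  calc k * r = (k * r * k⁻¹ * r⁻¹) * r * k := by group
    _ = r * k := by rw [h3, one_mul]

/-- LEMMA K -/
theorem eq_one_of_quadratic_pprime {X : Type*} [Group X] {p : ℕ} [hp : Fact p.Prime]
    (hC : Subgroup.centralizer ((pCore p X : Subgroup X) : Set X) ≤ pCore p X)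
    (k : X) (hk : ¬ p ∣ orderOf k)
    (hq : ∀ r ∈ pCore p X, k * (k * r * k⁻¹ * r⁻¹) = (k * r * k⁻¹ * r⁻¹) * k) : k = 1 := by
  have hRn : (pCore p X).Normal := Cfsg.Agent.Lib.Helper1.pCore_normal p
  have hRp : IsPGroup p (pCore p X) := pCore_isPGroup p
  have hkc : k ∈ Subgroup.centralizer ((pCore p X : Subgroup X) : Set X) := by
    rw [Subgroup.mem_centralizer_iff]
    intro r hr
    have hcm : k * r * k⁻¹ * r⁻¹ ∈ pCore p X :=
      (pCore p X).mul_mem (hRn.conj_mem r hr k) ((pCore p X).inv_mem hr)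
    obtain ⟨a, ha⟩ := hRp ⟨_, hcm⟩
    have ha' : (k * r * k⁻¹ * r⁻¹) ^ p ^ a = 1 := by
      simpa using congrArg Subtype.val ha
    exact (comm_eq_one_aux k r hk (hq r hr) ⟨a, ha'⟩).symm
  obtain ⟨a, ha⟩ := hRp ⟨k, hC hkc⟩
  have ha' : k ^ p ^ a = 1 := by simpa using congrArg Subtype.val ha
  obtain ⟨j, -, hj⟩ := (Nat.dvd_prime_pow hp.out).1 (orderOf_dvd_of_pow_eq_one ha')
  rcases Nat.eq_zero_or_pos j with rfl | hpos
  · rw [pow_zero, orderOf_eq_one_iff] at hj
    exact hj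
  · exact absurd (hj ▸ dvd_pow_self p hpos.ne') hk

/-- E4 -/
theorem constrained_centralizer_quotient {X : Type u} [Group X] [Finite X] {p : ℕ} [Fact p.Prime]
    (hC : Subgroup.centralizer ((pCore p X : Subgroup X) : Set X) ≤ pCore p X)
    (Z : Subgroup X) [Z.Normal] (hZ : IsPGroup p Z) :
    Subgroup.centralizer ((pCore p (↥(Subgroup.centralizer (Z : Set X)) ⧸ Z.subgroupOf (Subgroup.centralizer (Z : Set X))) :
      Subgroup (↥(Subgroup.centralizer (Z : Set X)) ⧸ Z.subgroupOf (Subgroup.centralizer (Z : Set X)))) : Set _) ≤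
      pCore p (↥(Subgroup.centralizer (Z : Set X)) ⧸ Z.subgroupOf (Subgroup.centralizer (Z : Set X))) := by
  classical
  have hYn : (Subgroup.centralizer (Z : Set X)).Normal := inferInstance
  have hRn : (pCore p X).Normal := Cfsg.Agent.Lib.Helper1.pCore_normal p
  have hOn : (pCore p (↥(Subgroup.centralizer (Z : Set X)) ⧸
      Z.subgroupOf (Subgroup.centralizer (Z : Set X)))).Normal := Cfsg.Agent.Lib.Helper1.pCore_normal p
  have hsurj := QuotientGroup.mk'_surjective (Z.subgroupOf (Subgroup.centralizer (Z : Set X)))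
  -- image of R ∩ Y
  have hRY : ((pCore p X).subgroupOf (Subgroup.centralizer (Z : Set X))).map
      (QuotientGroup.mk' (Z.subgroupOf (Subgroup.centralizer (Z : Set X)))) ≤
      pCore p (↥(Subgroup.centralizer (Z : Set X)) ⧸
        Z.subgroupOf (Subgroup.centralizer (Z : Set X))) := by
    apply le_pCore
    · have : ((pCore p X).subgroupOf (Subgroup.centralizer (Z : Set X))).Normal := inferInstance
      exact this.map _ hsurj
    · apply IsPGroup.map
      exact (pCore_isPGroup p).comap_of_injective _ (Subgroup.subtype_injective _)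
  -- key
  have key : ∀ k : ↥(Subgroup.centralizer (Z : Set X)), ¬ p ∣ orderOf k →
      QuotientGroup.mk' (Z.subgroupOf (Subgroup.centralizer (Z : Set X))) k ∈
        Subgroup.centralizer ((pCore p (↥(Subgroup.centralizer (Z : Set X)) ⧸
          Z.subgroupOf (Subgroup.centralizer (Z : Set X))) : Subgroup _) : Set _) → k = 1 := by
    intro k hk hkc
    have hk' : ¬ p ∣ orderOf (k : X) := by rwa [Subgroup.orderOf_coe]
    apply Subtype.ext
    apply eq_one_of_quadratic_pprime hC (k : X) hk'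
    intro r hr
    have hc1R : (k : X) * r * (k : X)⁻¹ * r⁻¹ ∈ pCore p X :=
      (pCore p X).mul_mem (hRn.conj_mem r hr k) ((pCore p X).inv_mem hr)
    have hc1Y : (k : X) * r * (k : X)⁻¹ * r⁻¹ ∈ Subgroup.centralizer (Z : Set X) := by
      have h1 := hYn.conj_mem (k : X)⁻¹ (Subgroup.inv_mem _ k.2) r
      have h2 := Subgroup.mul_mem _ k.2 h1
      simpa [mul_assoc] using h2
    obtain ⟨c1, hc1⟩ : ∃ c1 : ↥(Subgroup.centralizer (Z : Set X)),
        (c1 : X) = (k : X) * r * (k : X)⁻¹ * r⁻¹ := ⟨⟨_, hc1Y⟩, rfl⟩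
    rw [← hc1]
    have hc1O : QuotientGroup.mk' (Z.subgroupOf (Subgroup.centralizer (Z : Set X))) c1 ∈
        pCore p (↥(Subgroup.centralizer (Z : Set X)) ⧸
          Z.subgroupOf (Subgroup.centralizer (Z : Set X))) := by
      apply hRY
      refine Subgroup.mem_map_of_mem _ ?_
      rw [Subgroup.mem_subgroupOf, hc1]
      exact hc1R
    have hcomm := Subgroup.mem_centralizer_iff.mp hkc _ hc1O
    have hc2 : k * c1 * k⁻¹ * c1⁻¹ ∈ Z.subgroupOf (Subgroup.centralizer (Z : Set X)) := by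
      rw [← QuotientGroup.eq_one_iff]
      have : QuotientGroup.mk' (Z.subgroupOf (Subgroup.centralizer (Z : Set X)))
          (k * c1 * k⁻¹ * c1⁻¹) = 1 := by
        rw [map_mul, map_mul, map_mul, map_inv, map_inv, ← hcomm]
        group
      exact this
    rw [Subgroup.mem_subgroupOf] at hc2
    have hc2' : (k : X) * c1 * (k : X)⁻¹ * (c1 : X)⁻¹ ∈ Z := by simpa using hc2
    apply comm_eq_one_aux (p := p) (k : X) (c1 : X) hk'
    · exact (Subgroup.mem_centralizer_iff.mp k.2 _ hc2').symm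
    · obtain ⟨a, ha⟩ := hZ ⟨_, hc2'⟩
      exact ⟨a, by simpa using congrArg Subtype.val ha⟩
  apply le_pCore
  · infer_instance
  · rintro ⟨cbar, hcbar⟩
    obtain ⟨c, rfl⟩ := hsurj cbar
    obtain ⟨a, b, hb, hab⟩ := Nat.exists_eq_pow_mul_and_not_dvd (orderOf_pos c).ne' p
      (Fact.out : p.Prime).ne_one
    have hord : ¬ p ∣ orderOf (c ^ p ^ a) := by
      intro h
      apply hb (h.trans ?_)
      apply orderOf_dvd_of_pow_eq_one
      rw [← pow_mul, ← hab, pow_orderOf_eq_one]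
    refine ⟨a, ?_⟩
    apply Subtype.ext
    have h1 := key (c ^ p ^ a) hord (by
      rw [map_pow]
      exact Subgroup.pow_mem _ hcbar _)
    show (QuotientGroup.mk' _ c) ^ p ^ a = 1
    rw [← map_pow, h1, map_one]

end Cfsg.Agent.Lib.Helper81.FS
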