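import Mathlib
import Cfsg.Agent.Lib.Helper76.FS.Defs
import Cfsg.Agent.Lib.Helper64.Sylow

set_option autoImplicit false

universe u

namespace Cfsg.Agent.Lib.Helper81.FS

open Cfsg Cfsg.Agent.Lib.Helper76.FS

/-- E5a -/
theorem exists_sylow_centralizer_quotient {X : Type u} [Group X] [Finite X] {p : ℕ} [Fact p.Prime]
    (Z : Subgroup X) [Z.Normal] (hZ : IsPGroup p Z) (T : Sylow p X) :
    ∃ T' : Sylow p (↥(Subgroup.centralizer (Z : Set X)) ⧸ Z.subgroupOf (Subgroup.centralizer (Z : Set X))),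
      (T' : Subgroup _) = ((T : Subgroup X).subgroupOf (Subgroup.centralizer (Z : Set X))).map
        (QuotientGroup.mk' (Z.subgroupOf (Subgroup.centralizer (Z : Set X)))) := by
  obtain ⟨Q, hQ⟩ := Cfsg.Agent.Lib.Helper64.exists_sylow_subgroupOf_normal T
    (Subgroup.centralizer (Z : Set X))
  refine ⟨Q.mapSurjective (QuotientGroup.mk'_surjective _), ?_⟩
  rw [Sylow.coe_mapSurjective, hQ]

end Cfsg.Agent.Lib.Helper81.FS
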